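import Cfsg.Agent.Lib.H04.Tw.D4H
import Cfsg.Agent.Lib.H04.Tw.Core

/-!
# The core in `³D₄(q)`
-/

set_option autoImplicit false
set_option linter.style.longLine false
set_option linter.unusedSimpArgs false
set_option linter.unusedSectionVars false
set_option linter.unusedVariables false
set_option maxRecDepth 100000

open Cfsg.Lie Cfsg.Agent.H04.Chev
open Cfsg.Agent.H04.Chev.TD4

namespace Cfsg.Agent.H04.Tw.TD4

/-- a word for the longest element -/
def j0 : List ℕ := [0, 1, 0, 1, 0, 1]

theorem j0_lt : ∀ j ∈ j0, j < 2 := by decide +kernel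

theorem j0B : allRange 24 (fun r => Bool.rec true (Nat.blt (applyW chevD4 T (j0.flatMap Js) r) 12) (Nat.ble 12 r)) = true := by decide +kernel

theorem j0_neg : ∀ r, chevD4.nroots / 2 ≤ r → r < chevD4.nroots → applyW chevD4 T (j0.flatMap Js) r < chevD4.nroots / 2 := by
  intro r h1 h2
  have h3 := allRange_spec j0B r h2
  have h4 : Nat.ble 12 r = true := Nat.ble_eq_true_of_le h1
  rw [h4] at h3
  exact Nat.le_of_ble_eq_true h3

/-- the order of the walk -/
def wk : List ℕ := [0, 1]

theorem wk_chain : wk.IsChain (Jnc chevD4 T Js) := by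
  have h1 : Jnc chevD4 T Js 0 1 := by unfold Jnc; decide +kernel
  simp only [wk, List.isChain_cons_cons, List.IsChain.singleton, and_true]
  exact h1

theorem wk_mem : ∀ j, j < 2 → j ∈ wk := by decide

theorem wk_lt : ∀ j ∈ wk, j < 2 := by decide

variable {K : Type*} [Field K] [Fintype K] {q : ℕ}

theorem core (hq : IsPrimePow q) (hK : Fintype.card K = q ^ 3) :
    ((chevD4.borelSubgroup K ⊓ twistedD4 K q).subgroupOf (twistedD4 K q)).normalCore = ⊥ := by
  obtain ⟨f, hf⟩ := exists_frob hq (d := 2) hK
  have hff : ∀ t, f (f (f t)) = t := fun t => frob_order hK hf t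
  exact core_eq_bot checks checks2 checks3 twT f jT (gsh hf hff) clT' (by decide) LJ j0_lt j0_neg

end Cfsg.Agent.H04.Tw.TD4
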