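import Cfsg.Agent.Lib.H04.Tw.D4Inst

/-!
# The group of type `³D₄`: the torus and the pair
-/

set_option autoImplicit false
set_option linter.style.longLine false
set_option linter.unusedSimpArgs false
set_option linter.unusedSectionVars false
set_option linter.unusedVariables false
set_option maxRecDepth 100000

open Cfsg.Lie Cfsg.Agent.H04.Chev
open Cfsg.Agent.H04.Chev.TD4

namespace Cfsg.Agent.H04.Tw.TD4

variable {K : Type*} [Field K]

lemma rank_eq' : chevD4.rank = 4 := rfl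

theorem ker2 {x : ℕ → Kˣ} (hx : hProd U chevD4 x = 1) : ∀ i, i < chevD4.rank → x i ^ 2 = 1 := by
  intro i hi
  rw [rank_eq'] at hi
  interval_cases i
  · have := ker_list checks checks3 hx [2, 0, 0, 0] [2, 2, 1, 1] (by decide +kernel)
    simpa [rank_eq', Finset.prod_range_succ] using this
  · have := ker_list checks checks3 hx [0, 2, 0, 0] [2, 4, 2, 2] (by decide +kernel)
    simpa [rank_eq', Finset.prod_range_succ] using this
  · have := ker_list checks checks3 hx [0, 0, 2, 0] [1, 2, 2, 1] (by decide +kernel)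
    simpa [rank_eq', Finset.prod_range_succ] using this
  · have := ker_list checks checks3 hx [0, 0, 0, 2] [1, 2, 1, 2] (by decide +kernel)
    simpa [rank_eq', Finset.prod_range_succ] using this

theorem ker_rel {x : ℕ → Kˣ} (hx : hProd U chevD4 x = 1) : x 1 = 1 ∧ x 0 * (x 2 * x 3) = 1 := by
  refine ⟨?_, ?_⟩
  · have := ker_list checks checks3 hx [0, 1, 0, 0] [1, 2, 1, 1] (by decide +kernel)
    simpa [rank_eq', Finset.prod_range_succ] using this
  · have := ker_list checks checks3 hx [1, 0, 1, 1] [2, 3, 2, 2] (by decide +kernel)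
    simpa [rank_eq', Finset.prod_range_succ, mul_assoc] using this

variable [Fintype K] {q : ℕ}

/-- the stable form -/
theorem hst {f : K ≃+* K} (hff : ∀ t, f (f (f t)) = t) (c : ℕ → Kˣ) (hc : hProd U chevD4 (tauC f rhoI c) = hProd U chevD4 c) :
    ∃ c', StbU chevD4 f rho c' ∧ hProd U chevD4 c' = hProd U chevD4 c :=
  exists_stable_three checks checks3 twT f jT hff (by decide +kernel) (by decide +kernel) (by decide +kernel) (fun x hx => ker2 hx) hc

theorem H_fix {f : K ≃+* K} (hf : ∀ t, f t = t ^ q) (hff : ∀ t, f (f (f t)) = t) : chevD4.diagonalSubgroup K ⊓ Fx twT f ≤ twistedD4 K q :=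
  H_fix_le checks checks2 checks3 twT f jT (gsh hf hff) (hst hff)

theorem U_fix {f : K ≃+* K} (hf : ∀ t, f t = t ^ q) (hff : ∀ t, f (f (f t)) = t) : chevD4.posUnipotent K ⊓ Fx twT f ≤ twistedD4 K q :=
  U_fix_GS checks checks2 checks3 twT f jT clT' (gsh hf hff) (by decide) LJ upC

/-- the group is the group of fixed points -/
theorem GS_eq' {f : K ≃+* K} (hf : ∀ t, f t = t ^ q) (hff : ∀ t, f (f (f t)) = t) : twistedD4 K q = Fx twT f ⊓ chevD4.group K :=
  GS_eq checks checks2 checks3 twT f jT (gsh hf hff) (U_fix hf hff) (H_fix hf hff)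

/-- the torus parameters -/
noncomputable def cE (f : K ≃+* K) (a : Kˣ × ↥(FU f)) : ℕ → Kˣ := fun i =>
  if i = 0 then a.1 else if i = 1 then a.2 else if i = 2 then fu f a.1 else if i = 3 then fu f (fu f a.1) else 1

lemma cE_mul (f : K ≃+* K) (a b : Kˣ × ↥(FU f)) : cE f (a * b) = cE f a * cE f b := by
  funext i
  simp only [cE, Pi.mul_apply]
  split_ifs <;> simp

/-- the parametrisation of the fixed points of the torus -/
noncomputable def Phi (f : K ≃+* K) : (Kˣ × ↥(FU f)) →* GL chevD4.Idx K :=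
  MonoidHom.mk' (fun a => hProd U chevD4 (cE f a)) (fun a b => by rw [cE_mul, hProd_mul])

lemma Phi_apply (f : K ≃+* K) (a) : Phi f a = hProd U chevD4 (cE f a) := rfl

lemma stb_cE {f : K ≃+* K} (hff : ∀ t, f (f (f t)) = t) (a : Kˣ × ↥(FU f)) : StbU chevD4 f rho (cE f a) := by
  have hfu : ∀ x : Kˣ, fu f (fu f (fu f x)) = x := by
    intro x
    apply Units.ext
    simp only [fu_val, hff]
  intro i hi
  rw [rank_eq'] at hi
  obtain ⟨a1, ⟨a2, h2⟩⟩ := a
  have h2' : fu f a2 = a2 := h2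
  interval_cases i
  · simp [cE, show rho 0 = 2 from rfl]
  · simp [cE, show rho 1 = 1 from rfl, h2']
  · simp [cE, show rho 2 = 3 from rfl]
  · simp [cE, show rho 3 = 0 from rfl, hfu]

theorem Phi_range {f : K ≃+* K} (hf : ∀ t, f t = t ^ q) (hff : ∀ t, f (f (f t)) = t) : (Phi f).range = chevD4.diagonalSubgroup K ⊓ twistedD4 K q := by
  ext g
  constructor
  · rintro ⟨a, rfl⟩
    rw [Phi_apply]
    refine Subgroup.mem_inf.mpr ⟨?_, hProd_mem checks checks2 checks3 twT f jT (gsh hf hff) (stb_cE hff a)⟩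
    rw [diagonal_eq checks checks3]
    exact mem_HT.mpr ⟨_, rfl⟩
  · intro hg
    obtain ⟨h1, h2⟩ := Subgroup.mem_inf.mp hg
    have hs : sig twT f g = g := (Subgroup.mem_inf.mp ((gsh hf hff).le h2)).1
    rw [diagonal_eq checks checks3] at h1
    obtain ⟨c, rfl⟩ := mem_HT.mp h1
    rw [sig_hProd checks checks3 twT f jT] at hs
    obtain ⟨c', h3, h4⟩ := hst hff c hs
    have h1' : c' 1 ∈ FU f := by
      have := h3 1 (by decide)
      rw [show rho 1 = 1 from rfl] at this
      exact this.symm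
    refine ⟨(c' 0, ⟨c' 1, h1'⟩), ?_⟩
    rw [Phi_apply, ← h4]
    apply hProd_congr
    intro i hi
    rw [rank_eq'] at hi
    have h5 := h3 0 (by decide)
    have h6 := h3 2 (by decide)
    rw [show rho 0 = 2 from rfl] at h5
    rw [show rho 2 = 3 from rfl, h5] at h6
    interval_cases i
    · simp [cE]
    · simp [cE]
    · simp [cE, h5]
    · simp [cE, h6]

theorem Phi_inj {f : K ≃+* K} (hf : ∀ t, f t = t ^ q) (hff : ∀ t, f (f (f t)) = t) : Function.Injective (Phi f) := by
  rw [injective_iff_map_eq_one]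
  rintro ⟨a1, ⟨a2, h2⟩⟩ ha
  have hx : hProd U chevD4 (cE f (a1, ⟨a2, h2⟩)) = 1 := ha
  obtain ⟨h3, h4⟩ := ker_rel hx
  have h5 := ker2 hx 0 (by decide)
  have e0 : cE f (a1, ⟨a2, h2⟩) 0 = a1 := by simp [cE]
  have e1 : cE f (a1, ⟨a2, h2⟩) 1 = a2 := by simp [cE]
  have e2 : cE f (a1, ⟨a2, h2⟩) 2 = fu f a1 := by simp [cE]
  have e3 : cE f (a1, ⟨a2, h2⟩) 3 = fu f (fu f a1) := by simp [cE]
  rw [e0] at h5
  rw [e0, e2, e3] at h4
  rw [e1] at h3
  have hf1 : fu f a1 = a1 := by
    have h6 : (a1 : K) ^ 2 = 1 := by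
      have := congrArg (fun x : Kˣ => (x : K)) h5
      simpa using this
    have h7 : (a1 : K) = 1 ∨ (a1 : K) = -1 := sq_eq_one_iff.mp h6
    apply Units.ext
    rw [fu_val]
    rcases h7 with h7 | h7 <;> simp [h7]
  rw [hf1, hf1] at h4
  have h8 : a1 = 1 := by
    calc a1 = a1 * (a1 * a1) * (a1 ^ 2)⁻¹ := by group
      _ = 1 := by rw [h4, h5]; simp
  subst h3
  subst h8
  rfl

theorem card_H (hq : IsPrimePow q) (hK : Fintype.card K = q ^ 3) :
    Nat.card ↥(chevD4.diagonalSubgroup K ⊓ twistedD4 K q) = (q - 1) ^ 2 * (q ^ 2 + q + 1) := by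
  have hq1 : 1 ≤ q := hq.one_lt.le
  obtain ⟨f, hf⟩ := exists_frob hq (d := 2) hK
  have hff : ∀ t, f (f (f t)) = t := fun t => frob_order hK hf t
  have hcardK : Nat.card Kˣ = q ^ 3 - 1 := by
    rw [Nat.card_units, Nat.card_eq_fintype_card, hK]
  have hfact : q ^ 3 - 1 = (q - 1) * (q ^ 2 + q + 1) := by
    obtain ⟨r, rfl⟩ : ∃ r, q = r + 1 := ⟨q - 1, by omega⟩
    simp only [Nat.add_sub_cancel]
    have : (r + 1) ^ 3 = r * ((r + 1) ^ 2 + (r + 1) + 1) + 1 := by ring
    rw [this]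
    simp
  rw [← Phi_range hf hff, ← Nat.card_congr (MonoidHom.ofInjective (Phi_inj hf hff)).toEquiv, Nat.card_prod, hcardK, card_FU hq1 hK hf, hfact]
  ring

end Cfsg.Agent.H04.Tw.TD4
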