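import Cfsg.Agent.Lib.H04.Tw.D4C
import Cfsg.Agent.Lib.H04.Tw.Perf

/-!
# `³D₄(q)` is perfect and simple
-/

set_option autoImplicit false
set_option linter.style.longLine false
set_option linter.unusedSimpArgs false
set_option linter.unusedSectionVars false
set_option linter.unusedVariables false
set_option maxRecDepth 100000

open Cfsg.Lie Cfsg.Agent.H04.Chev
open Cfsg.Agent.H04.Chev.TD4

namespace Cfsg.Agent.H04.Tw.TD4

variable {K : Type*} [Field K] {q : ℕ}

/-- generators of the group -/
theorem gen_le {f : K ≃+* K} (hf : ∀ t, f t = t ^ q) (hff : ∀ t, f (f (f t)) = t) (Z : Subgroup (GL chevD4.Idx K))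
    (hx : ∀ j, j < 2 → ∀ c : ℕ → K, (∀ a ∈ Js j, c (rho a) = f (c a)) → xI checks (Js j) c ∈ Z)
    (hy : ∀ j, j < 2 → ∀ c : ℕ → K, (∀ a ∈ Js j, c (rho a) = f (c a)) → yI checks (Js j) c ∈ Z) : twistedD4 K q ≤ Z := by
  have hq2 : ∀ t : K, t ^ (q ^ 2) = f (f t) := by
    intro t
    rw [hf, hf, ← pow_mul, sq]
  unfold twistedD4 Cfsg.Lie.ChevalleyDatum.genSubgroup
  rw [Subgroup.closure_le]
  rintro g ⟨w, hw, hg⟩
  have hgw : g = wordG checks w := Units.ext (by rw [hg, wordG_val])
  subst hgw
  rcases hw with ⟨t, ht, r, hr, rfl⟩ | ⟨t, rs, hrs, rfl⟩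
  · have hc : ∀ u : K, u ^ q = u → ∀ i, (fun _ => u : ℕ → K) (rho i) = f ((fun _ => u : ℕ → K) i) := by
      intro u hu i
      simp only [hf, hu]
    simp only [List.mem_cons, List.not_mem_nil, or_false] at hr
    rcases hr with rfl | rfl
    · exact (xI0 (fun _ => t)) ▸ hx 0 (by decide) _ (fun i _ => hc t ht i)
    · exact (yI0 (fun _ => t)) ▸ hy 0 (by decide) _ (fun i _ => hc t ht i)
  · simp only [List.mem_cons, List.not_mem_nil, or_false] at hrs
    have hst : ∀ i ∈ Js 1, pc3 t (f t) (f (f t)) (rho i) = f (pc3 t (f t) (f (f t)) i) := by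
      intro i hi
      simp only [show Js 1 = [0, 2, 3] from rfl, List.mem_cons, List.not_mem_nil, or_false] at hi
      rcases hi with rfl | rfl | rfl
      · simp [pc3, show rho 0 = 2 from rfl]
      · simp [pc3, show rho 2 = 3 from rfl]
      · simp [pc3, show rho 3 = 0 from rfl, hff]
    rcases hrs with rfl | rfl
    · have e := xI1 (pc3 t (f t) (f (f t)))
      have h0 : pc3 t (f t) (f (f t)) 0 = t := by simp [pc3]
      have h2 : pc3 t (f t) (f (f t)) 2 = f t := by simp [pc3]
      have h3 : pc3 t (f t) (f (f t)) 3 = f (f t) := by simp [pc3]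
      rw [h0, h2, h3] at e
      have := hx 1 (by decide) _ hst
      rw [e] at this
      show wordG checks [(d4p1, t), (d4p3, t ^ q), (d4p4, t ^ (q ^ 2))] ∈ Z
      rw [hq2, ← hf]
      exact this
    · have e := yI1 (pc3 t (f t) (f (f t)))
      have h0 : pc3 t (f t) (f (f t)) 0 = t := by simp [pc3]
      have h2 : pc3 t (f t) (f (f t)) 2 = f t := by simp [pc3]
      have h3 : pc3 t (f t) (f (f t)) 3 = f (f t) := by simp [pc3]
      rw [h0, h2, h3] at e
      have := hy 1 (by decide) _ hst
      rw [e] at this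
      show wordG checks [(d4m1, t), (d4m3, t ^ q), (d4m4, t ^ (q ^ 2))] ∈ Z
      rw [hq2, ← hf]
      exact this

theorem hy_table : ∀ j, j < 2 → ∀ a ∈ Js j, applyW chevD4 T (Js j) (negF chevD4 (chevD4.simple a)) ∈ L j := by decide +kernel

theorem hc1 : chevD4.commTerms 14 22 = [(23, 1, 1, 1)] := by decide +kernel

theorem hcl4 : ∀ s ∈ L 4, applyW chevD4 T (Js 0) s ∈ L 5 := by decide +kernel
theorem hcl0 : ∀ s ∈ L 0, applyW chevD4 T (Js 1) s ∈ L 4 := by decide +kernel

variable [Fintype K]

/-- the classes of the fundamental roots -/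
theorem FX_all {f : K ≃+* K} (hf : ∀ t, f t = t ^ q) (hff : ∀ t, f (f (f t)) = t) (hK : 4 ≤ Fintype.card K) {GS : Subgroup (GL chevD4.Idx K)}
    (hS : GSH checks twT f 2 Js rho GS) (hFXS : ∀ i, i < m → FX twT f checks cl i ≤ GS) : ∀ j, j < 2 → FX twT f checks cl j ≤ DT GS := by
  have h5 : FX twT f checks cl 5 ≤ DT GS :=
    FX_comm_le checks checks2 checks3 twT f clT' hFXS (ia := 0) (ib := 4) (a := 14) (b := 22) (c := 23) (z := 1) (Or.inl rfl)
      (by decide) (by decide) (by decide) rfl rfl rfl (by decide +kernel) (by decide +kernel) (by decide +kernel) (by decide +kernel) (by decide +kernel) (by decide +kernel)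
      (by decide) (by decide +kernel) hc1
  have h4 := FX_conj checks checks2 checks3 twT f jT hS clT' (j := 0) (i := 5) (i' := 4) (by decide) (by decide) (by decide) hcl4 h5
  have h0 := FX_conj checks checks2 checks3 twT f jT hS clT' (j := 1) (i := 4) (i' := 0) (by decide) (by decide) (by decide) hcl0 h4
  obtain ⟨x, hx⟩ := exists_unit_sq hK
  have hinj : ∀ y : Kˣ, y ^ 2 ≠ 1 → (fu f y) ^ 2 ≠ 1 := by
    intro y hy h5
    apply hy
    apply Units.ext
    have h7 := congrArg Units.val h5
    simp only [Units.val_pow_eq_pow_val, fu_val, Units.val_one, ← map_pow] at h7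
    have h8 : f ((y : K) ^ 2) = f 1 := by rw [h7, map_one]
    simpa using f.injective h8
  have hfu : fu f (fu f (fu f x)) = x := Units.ext (hff x)
  have h1 : FX twT f checks cl 1 ≤ DT GS := by
    refine FX_le_DT_of_e checks checks2 checks3 twT f jT hS clT' (by decide) LJ (j := 1) (by decide) (e := fun i => if i = 0 then x else if i = 2 then fu f x else fu f (fu f x)) ?_ ?_
    · intro a ha
      simp only [show Js 1 = [0, 2, 3] from rfl, List.mem_cons, List.not_mem_nil, or_false] at ha
      rcases ha with rfl | rfl | rfl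
      · simp [show rho 0 = 2 from rfl]
      · simp [show rho 2 = 3 from rfl]
      · simp [show rho 3 = 0 from rfl, hfu]
    · intro a ha
      simp only [show Js 1 = [0, 2, 3] from rfl, List.mem_cons, List.not_mem_nil, or_false] at ha
      rcases ha with rfl | rfl | rfl
      · simpa using hx
      · simpa using hinj x hx
      · simpa using hinj _ (hinj x hx)
  intro j hj
  interval_cases j
  · exact h0
  · exact h1

theorem perfect (hq : IsPrimePow q) (hK : Fintype.card K = q ^ 3) : commutator ↥(twistedD4 K q) = ⊤ := by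
  obtain ⟨f, hf⟩ := exists_frob hq (d := 2) hK
  have hff : ∀ t, f (f (f t)) = t := fun t => frob_order hK hf t
  have hS := gsh hf hff
  have hq2 : 2 ≤ q := hq.one_lt
  have hK4 : 4 ≤ Fintype.card K := by
    rw [hK]
    nlinarith [Nat.pow_le_pow_left hq2 3]
  have hFXS := FX_le checks checks2 checks3 twT f jT hS clT' (by decide) LJ upC
  exact perfect_T checks checks2 checks3 twT f jT hS clT' (by decide) LJ (fun Z hx hy => gen_le hf hff Z hx hy) hy_table
    (FX_all hf hff hK4 hS hFXS)

theorem simple (hq : IsPrimePow q) (hK : Fintype.card K = q ^ 3) : IsSimpleGroup ↥(twistedD4 K q) ∧ ¬ IsMulCommutative ↥(twistedD4 K q) := by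
  obtain ⟨f, hf⟩ := exists_frob hq (d := 2) hK
  have hff : ∀ t, f (f (f t)) = t := fun t => frob_order hK hf t
  exact simple_T checks checks2 checks3 twT f jT (gsh hf hff) (GS_eq' hf hff) clT' jT2 (by decide) LJ wk_chain wk_mem wk_lt (by decide) j0_lt j0_neg (perfect hq hK)

end Cfsg.Agent.H04.Tw.TD4
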