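import Cfsg.Agent.Lib.H04.Tw.Order
import Cfsg.Agent.Lib.H04.Chev.MoreDefs

/-!
# Enumerating the fixed points of the Weyl group
-/

set_option autoImplicit false
set_option linter.style.longLine false
set_option linter.unusedSimpArgs false
set_option linter.unusedSectionVars false
set_option linter.unusedVariables false

open Cfsg.Lie Cfsg.Agent.H04.Chev

namespace Cfsg.Agent.H04.Tw

variable {D : ChevalleyDatum} {T : Tabs}

/-- number of inversions of a table -/
noncomputable def cntB (π : ℕ → ℕ) (M N : ℕ) : ℕ :=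
  Nat.rec 0 (fun s ih => Nat.add ih (Bool.rec 0 1 (bnd (Nat.ble M s) (Nat.blt (π s) M)))) N

lemma cntB_eq (π : ℕ → ℕ) (M N : ℕ) : cntB π M N = ∑ s ∈ Finset.range N, if M ≤ s ∧ π s < M then 1 else 0 := by
  induction N with
  | zero => rfl
  | succ N ih =>
    rw [Finset.sum_range_succ, ← ih]
    show cntB π M N + (Bool.rec 0 1 (bnd (Nat.ble M N) (Nat.blt (π N) M)) : ℕ) = _
    congr 1
    by_cases h1 : M ≤ N
    · by_cases h2 : π N < M
      · have e1 : Nat.ble M N = true := Nat.ble_eq_true_of_le h1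
        have e2 : Nat.blt (π N) M = true := Nat.ble_eq_true_of_le h2
        rw [e1, e2]
        simp [bnd, h1, h2]
      · have e1 : Nat.ble M N = true := Nat.ble_eq_true_of_le h1
        have e2 : Nat.blt (π N) M = false := by
          rw [← Bool.not_eq_true]
          intro h3
          exact h2 (Nat.le_of_ble_eq_true h3)
        rw [e1, e2]
        simp [bnd, h1, h2]
    · have e1 : Nat.ble M N = false := by
        rw [← Bool.not_eq_true]
        intro h3
        exact h1 (Nat.le_of_ble_eq_true h3)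
      rw [e1]
      simp [bnd, h1]

lemma cntB_congr {π π' : ℕ → ℕ} {M N : ℕ} (h : ∀ s, s < N → π s = π' s) : cntB π M N = cntB π' M N := by
  rw [cntB_eq, cntB_eq]
  apply Finset.sum_congr rfl
  intro s hs
  rw [h s (Finset.mem_range.mp hs)]

lemma invP_of {w : Equiv.Perm (Fin D.nroots)} {π : ℕ → ℕ} (h : ∀ s : Fin D.nroots, ((w s : Fin D.nroots) : ℕ) = π s) :
    invP w = cntB π (D.nroots / 2) D.nroots := by
  classical
  rw [cntB_eq, ← Fin.sum_univ_eq_sum_range (fun s => if D.nroots / 2 ≤ s ∧ π s < D.nroots / 2 then 1 else 0)]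
  unfold invP
  rw [Finset.card_filter]
  apply Finset.sum_congr rfl
  intro s _
  rw [h s]

/-- The table of the elements of the fixed Weyl group -/
structure WE (D : ChevalleyDatum) (T : Tabs) (r' : ℕ) (Js : ℕ → List ℕ) (E : ℕ) (Qb mt : ℕ → ℕ → ℕ) (pj cnt : ℕ → ℕ) : Prop where
  hE : 0 < E
  b0 : ∀ s, s < D.nroots → Qb 0 s = s
  mt_lt : ∀ e, e < E → ∀ j, j < r' → mt e j < E
  mt_eq : ∀ e, e < E → ∀ j, j < r' → ∀ s, s < D.nroots → Qb (mt e j) s = applyW D T (Js j) (Qb e s)
  par : ∀ e, e < E → 0 < e → pj e < r' ∧ mt e (pj e) < e ∧ mt (mt e (pj e)) (pj e) = e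
  inj : ∀ e, e < E → ∀ e', e' < E → (∀ s, s < D.nroots → Qb e s = Qb e' s) → e = e'
  cnt : ∀ e, e < E → cntB (Qb e) (D.nroots / 2) D.nroots = cnt e

section
variable (C : Checks D T) {G : GT} {r' : ℕ} {Js : ℕ → List ℕ} {rho rhoI : ℕ → ℕ} (hJ : JT D T G r' Js rho rhoI)
variable {E : ℕ} {Qb mt : ℕ → ℕ → ℕ} {pj cnt : ℕ → ℕ} (hW : WE D T r' Js E Qb mt pj cnt)

include hJ hW in
lemma WE_ex (e : ℕ) (he : e < E) : ∃ w ∈ WT C r' Js, ∀ s : Fin D.nroots, ((w s : Fin D.nroots) : ℕ) = Qb e s := by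
  induction e using Nat.strong_induction_on with
  | _ e ih =>
    rcases Nat.eq_zero_or_pos e with rfl | he0
    · exact ⟨1, one_mem _, fun s => (hW.b0 s s.2).symm⟩
    · obtain ⟨h1, h2, h3⟩ := hW.par e he he0
      obtain ⟨w, hw, hw2⟩ := ih _ h2 (h2.trans he)
      refine ⟨wordP C (Js (pj e)) * w, mul_mem (Subgroup.subset_closure ⟨_, h1, rfl⟩) hw, fun s => ?_⟩
      rw [Equiv.Perm.mul_apply, wordP_apply C (hJ.lt _ h1), hw2, ← hW.mt_eq _ (h2.trans he) _ h1 s s.2, h3]

include hJ in
lemma wordP_inv_eq (hinv : ∀ j, j < r' → ∀ r, r < D.nroots → applyW D T (Js j) (applyW D T (Js j) r) = r) {j : ℕ} (hj : j < r') :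
    (wordP C (Js j))⁻¹ = wordP C (Js j) := by
  rw [inv_eq_iff_mul_eq_one]
  ext s
  rw [Equiv.Perm.mul_apply, wordP_apply C (hJ.lt _ hj), wordP_apply C (hJ.lt _ hj), hinv j hj _ s.2]
  rfl

include hJ hW in
lemma WE_sur (hinv : ∀ j, j < r' → ∀ r, r < D.nroots → applyW D T (Js j) (applyW D T (Js j) r) = r)
    {w : Equiv.Perm (Fin D.nroots)} (hw : w ∈ WT C r' Js) : ∃ e, e < E ∧ ∀ s : Fin D.nroots, ((w s : Fin D.nroots) : ℕ) = Qb e s := by
  unfold WT at hw
  induction hw using Subgroup.closure_induction_left with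
  | one => exact ⟨0, hW.hE, fun s => (hW.b0 s s.2).symm⟩
  | mul_left x hx y _ ih =>
    obtain ⟨j, hj, rfl⟩ := hx
    obtain ⟨e, he, h1⟩ := ih
    refine ⟨mt e j, hW.mt_lt e he j hj, fun s => ?_⟩
    rw [Equiv.Perm.mul_apply, wordP_apply C (hJ.lt _ hj), h1, hW.mt_eq e he j hj s s.2]
  | inv_mul_cancel x hx y _ ih =>
    obtain ⟨j, hj, rfl⟩ := hx
    obtain ⟨e, he, h1⟩ := ih
    refine ⟨mt e j, hW.mt_lt e he j hj, fun s => ?_⟩
    rw [wordP_inv_eq C hJ hinv hj, Equiv.Perm.mul_apply, wordP_apply C (hJ.lt _ hj), h1, hW.mt_eq e he j hj s s.2]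

include hJ hW in
theorem PST_eq (hinv : ∀ j, j < r' → ∀ r, r < D.nroots → applyW D T (Js j) (applyW D T (Js j) r) = r) (q : ℕ) :
    PST C r' Js q = ∑ e ∈ Finset.range E, q ^ cnt e := by
  classical
  have hex := fun (e : ℕ) (he : e ∈ Finset.range E) => WE_ex C hJ hW e (Finset.mem_range.mp he)
  choose W hW1 hW2 using hex
  unfold PST
  symm
  refine Finset.sum_bij W ?_ ?_ ?_ ?_
  · intro e he
    exact (Set.Finite.mem_toFinset _).mpr (hW1 e he)
  · intro e he e' he' h1
    apply hW.inj e (Finset.mem_range.mp he) e' (Finset.mem_range.mp he')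
    intro s hs
    rw [← hW2 e he ⟨s, hs⟩, ← hW2 e' he' ⟨s, hs⟩, h1]
  · intro w hw
    obtain ⟨e, he, h1⟩ := WE_sur C hJ hW hinv ((Set.Finite.mem_toFinset _).mp hw)
    refine ⟨e, Finset.mem_range.mpr he, ?_⟩
    ext s
    rw [hW2 e _ s, h1 s]
  · intro e he
    rw [invP_of (hW2 e he), hW.cnt e (Finset.mem_range.mp he)]

end

/-- the number of indices of the given value -/
noncomputable def histC (cnt : ℕ → ℕ) (E k : ℕ) : ℕ :=
  Nat.rec 0 (fun e ih => Nat.add ih (Bool.rec 0 1 (Nat.beq (cnt e) k))) E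

lemma histC_eq (cnt : ℕ → ℕ) (E k : ℕ) : ((Finset.range E).filter fun e => cnt e = k).card = histC cnt E k := by
  induction E with
  | zero => rfl
  | succ E ih =>
    rw [Finset.range_add_one, Finset.filter_insert]
    show _ = histC cnt E k + (Bool.rec 0 1 (Nat.beq (cnt E) k) : ℕ)
    by_cases h : cnt E = k
    · rw [if_pos h, Finset.card_insert_of_notMem (by simp), ih]
      have : Nat.beq (cnt E) k = true := by rw [h]; exact Nat.beq_refl k
      rw [this]
    · rw [if_neg h, ih]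
      have : Nat.beq (cnt E) k = false := by
        rw [← Bool.not_eq_true, Nat.beq_eq]
        exact h
      rw [this]
      rfl

theorem sum_hist {cnt : ℕ → ℕ} {E M : ℕ} (h1 : ∀ e, e < E → cnt e < M) (q : ℕ) :
    ∑ e ∈ Finset.range E, q ^ cnt e = ∑ k ∈ Finset.range M, histC cnt E k * q ^ k := by
  classical
  rw [← Finset.sum_fiberwise_of_maps_to (g := cnt) (t := Finset.range M) (fun e he => Finset.mem_range.mpr (h1 e (Finset.mem_range.mp he)))]
  apply Finset.sum_congr rfl
  intro k _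
  rw [← histC_eq, Finset.sum_congr rfl (g := fun _ => q ^ k), Finset.sum_const, smul_eq_mul]
  intro e he
  rw [(Finset.mem_filter.mp he).2]

lemma bytes_eq (N : ℕ) : ∀ {x y : ℕ}, (∀ s, s < N → x / 256 ^ s % 256 = y / 256 ^ s % 256) → x / 256 ^ N = y / 256 ^ N → x = y := by
  induction N with
  | zero =>
    intro x y _ h
    simpa using h
  | succ N ih =>
    intro x y h1 h2
    have h3 : x / 256 = y / 256 := by
      apply ih
      · intro s hs
        have := h1 (s + 1) (by omega)
        rwa [pow_succ', ← Nat.div_div_eq_div_mul, ← Nat.div_div_eq_div_mul] at this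
      · rwa [pow_succ', ← Nat.div_div_eq_div_mul, ← Nat.div_div_eq_div_mul] at h2
    have h4 := h1 0 (by omega)
    simp only [pow_zero, Nat.div_one] at h4
    have e1 := Nat.div_add_mod x 256
    have e2 := Nat.div_add_mod y 256
    rw [← e1, ← e2, h3, h4]

/-- a byte of a number -/
@[reducible] noncomputable def byteN (x s : ℕ) : ℕ := Nat.land (Nat.shiftRight x (Nat.mul 8 s)) 255

lemma byteN_eq (x s : ℕ) : byteN x s = x / 256 ^ s % 256 := by
  have e1 : Nat.land (Nat.shiftRight x (Nat.mul 8 s)) 255 = (x >>> (8 * s)) &&& (2 ^ 8 - 1) := rfl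
  rw [byteN, e1, Nat.and_two_pow_sub_one_eq_mod, Nat.shiftRight_eq_div_pow, pow_mul]
  rfl

/-- the checks of a row of the table of elements -/
noncomputable def weRow (N r' E : ℕ) (Q P Mt : NT) (e : ℕ) : Bool :=
  allRange r' fun j =>
    bnd (Nat.blt (Nat.land (Nat.shiftRight (Mt.get e) (Nat.mul 16 j)) 65535) E)
      (allRange N fun s =>
        bnd (Nat.blt (byteN (Q.get e) s) N)
          (Nat.beq (byteN (Q.get (Nat.land (Nat.shiftRight (Mt.get e) (Nat.mul 16 j)) 65535)) s) (byteN (P.get j) (byteN (Q.get e) s))))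

/-- the checks of a row of the table of elements -/
noncomputable def weRow2 (N r' : ℕ) (Q Mt Pj : NT) (e : ℕ) : Bool :=
  bnd (Nat.beq (Nat.shiftRight (Q.get e) (Nat.mul 8 N)) (cntB (fun s => byteN (Q.get e) s) (N / 2) N))
    (Bool.rec
      (bnd (Nat.blt (Pj.get e) r')
        (bnd (Nat.blt (Nat.land (Nat.shiftRight (Mt.get e) (Nat.mul 16 (Pj.get e))) 65535) e)
          (Nat.beq (Nat.land (Nat.shiftRight (Mt.get (Nat.land (Nat.shiftRight (Mt.get e) (Nat.mul 16 (Pj.get e))) 65535)) (Nat.mul 16 (Pj.get e))) 65535) e)))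
      true (Nat.beq e 0))

theorem WE_of {N r' E : ℕ} {Js : ℕ → List ℕ} {Q P Mt Pj : NT} (hN : D.nroots = N) (hE : 0 < E)
    (hP : ∀ j, j < r' → ∀ s, s < N → byteN (P.get j) s = applyW D T (Js j) s)
    (h0 : ∀ s, s < N → byteN (Q.get 0) s = s)
    (h1 : ∀ e, e < E → weRow N r' E Q P Mt e = true)
    (h2 : ∀ e, e < E → weRow2 N r' Q Mt Pj e = true)
    (h3 : ∀ e, e + 1 < E → Q.get e < Q.get (e + 1)) :
    WE D T r' Js E (fun e s => byteN (Q.get e) s) (fun e j => Nat.land (Nat.shiftRight (Mt.get e) (Nat.mul 16 j)) 65535) Pj.get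
      (fun e => Nat.shiftRight (Q.get e) (Nat.mul 8 N)) := by
  subst hN
  have hmono : ∀ e e', e < e' → e' < E → Q.get e < Q.get e' := by
    intro e e' h4
    induction e', h4 using Nat.le_induction with
    | base => exact fun h5 => h3 e h5
    | succ n hn ih => exact fun h5 => (ih (by omega)).trans (h3 n h5)
  have hc : ∀ e, e < E → Nat.shiftRight (Q.get e) (Nat.mul 8 D.nroots) = cntB (fun s => byteN (Q.get e) s) (D.nroots / 2) D.nroots := by
    intro e he
    have := h2 e he
    unfold weRow2 at this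
    simp only [bnd_eq_true] at this
    exact Nat.eq_of_beq_eq_true this.1
  refine ⟨hE, h0, ?_, ?_, ?_, ?_, fun e he => (hc e he).symm⟩
  · intro e he j hj
    have := allRange_spec (h1 e he) j hj
    simp only [bnd_eq_true] at this
    exact Nat.le_of_ble_eq_true this.1
  · intro e he j hj s hs
    have := allRange_spec (h1 e he) j hj
    simp only [bnd_eq_true] at this
    have h4 := allRange_spec this.2 s hs
    simp only [bnd_eq_true] at h4
    rw [Nat.eq_of_beq_eq_true h4.2, hP j hj _ (Nat.le_of_ble_eq_true h4.1)]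
  · intro e he he0
    have := h2 e he
    unfold weRow2 at this
    have h5 : Nat.beq e 0 = false := by
      rw [← Bool.not_eq_true, Nat.beq_eq]
      omega
    rw [h5] at this
    simp only [bnd_eq_true] at this
    exact ⟨Nat.le_of_ble_eq_true this.2.1, Nat.le_of_ble_eq_true this.2.2.1, Nat.eq_of_beq_eq_true this.2.2.2⟩
  · intro e he e' he' h6
    have h7 : Q.get e = Q.get e' := by
      apply bytes_eq D.nroots
      · intro s hs
        rw [← byteN_eq, ← byteN_eq]
        exact h6 s hs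
      · have h8 := hc e he
        have h9 := hc e' he'
        have e8 : ∀ x : ℕ, Nat.shiftRight x (Nat.mul 8 D.nroots) = x / 256 ^ D.nroots := by
          intro x
          have e1 : Nat.shiftRight x (Nat.mul 8 D.nroots) = x >>> (8 * D.nroots) := rfl
          rw [e1, Nat.shiftRight_eq_div_pow, pow_mul]
          rfl
        rw [e8] at h8 h9
        rw [h8, h9]
        exact cntB_congr h6
    rcases lt_trichotomy e e' with h10 | h10 | h10
    · exact absurd h7 (hmono e e' h10 he').ne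
    · exact h10
    · exact absurd h7.symm (hmono e' e h10 he).ne

end Cfsg.Agent.H04.Tw
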